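import Cfsg.Agent.H30.LeastCR
import Cfsg.Agent.H30.SlFree
import Cfsg.Agent.Walter.GlaubermanFusion

/-!
# A centric normal subgroup of the fusion system of an `SL(2, p)`-free group

`concl`: if `p` is odd and no automizer of a `p`-subgroup of `G` involves `SL(2, p)`, then the Sylow `p`-subgroup `P`
has a subgroup `Q ⊴ P` containing all `p`-elements of `C_G(Q)` such that `N_G(Q)` controls strong fusion in `P`.
-/

set_option autoImplicit false

namespace Cfsg.Agent.H30.CentricControl

open Subgroup Cfsg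
open Cfsg.Agent.Lib.GoldschmidtFusion Cfsg.Agent.Lib.EssentialFusion
open Cfsg.Agent.H30.StrongFusion Cfsg.Agent.H30.LeastCR Cfsg.Agent.H30.SlFree

universe u

/-- The conclusion. -/
def Concl (p : ℕ) (G : Type*) [Group G] : Prop :=
  ∀ P : Sylow p G, ∃ Q : Subgroup G, Q ≤ P ∧ (P : Subgroup G) ≤ normalizer (Q : Set G) ∧
    Ctl (P : Subgroup G) (normalizer (Q : Set G)) ∧ Cen p Q

variable {G : Type*} [Group G]

theorem normalizer_le_normalizer_centralizer (X : Subgroup G) :
    normalizer (X : Set G) ≤ normalizer (centralizer (X : Set G) : Set G) := by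
  rw [le_normalizer_iff]
  intro n hn y hy
  rw [← mem_normalizer_iff_map_conj.1 hn, mem_centralizer_map_conj]
  simpa [mul_assoc] using hy

variable [Finite G] {p : ℕ} [hp : Fact p.Prime]

omit [Finite G] hp in
/-- A normal `p`-subgroup lies in every Sylow subgroup. -/
theorem le_sylow_of_normal (Z : Subgroup G) [hZn : Z.Normal] (hZ : IsPGroup p Z) (P : Sylow p G) :
    Z ≤ (P : Subgroup G) := by
  have h1 : IsPGroup p ((P : Subgroup G) ⊔ Z : Subgroup G) := P.isPGroup'.to_sup_of_normal_right hZ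
  have h2 := P.is_maximal' h1 le_sup_left
  exact h2 ▸ le_sup_right

/-- Quotients by central `p`-subgroups. -/
theorem concl_of_quotient (Z : Subgroup G) [hZn : Z.Normal] (hZ : IsPGroup p Z) (hZc : Z ≤ center G)
    (h : Concl p (G ⧸ Z)) (P : Sylow p G) :
    ∃ Q : Subgroup G, Z ≤ Q ∧ Q ≤ P ∧ (P : Subgroup G) ≤ normalizer (Q : Set G) ∧
      Ctl (P : Subgroup G) (normalizer (Q : Set G)) ∧ Cen p Q := by
  set π : G →* G ⧸ Z := QuotientGroup.mk' Z with hπ
  have hπs : Function.Surjective π := QuotientGroup.mk'_surjective Z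
  have hπ1 : ∀ x : G, π x = 1 ↔ x ∈ Z := fun x => QuotientGroup.eq_one_iff x
  obtain ⟨Qb, hQb1, hQb2, hQb3, hQb4⟩ := h (P.mapSurjective hπs)
  rw [Sylow.coe_mapSurjective] at hQb1 hQb2 hQb3
  have hZP : Z ≤ (P : Subgroup G) := le_sylow_of_normal Z hZ P
  have hPmem : ∀ x : G, π x ∈ (P : Subgroup G).map π → x ∈ (P : Subgroup G) := by
    rintro x ⟨y, hy, hyx⟩
    have h1 : π (y⁻¹ * x) = 1 := by rw [map_mul, map_inv, hyx, inv_mul_cancel]
    have h2 := hZP ((hπ1 _).1 h1)
    have := mul_mem hy h2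
    simpa using this
  have hNQ : normalizer ((Qb.comap π : Subgroup G) : Set G) = (normalizer (Qb : Set (G ⧸ Z))).comap π := by
    ext x
    rw [mem_comap, mem_normalizer_iff, mem_normalizer_iff]
    constructor
    · intro h1 y
      obtain ⟨y, rfl⟩ := hπs y
      simpa using h1 y
    · intro h1 y
      simpa using h1 (π y)
  have hPQ : (P : Subgroup G) ≤ normalizer ((Qb.comap π : Subgroup G) : Set G) := by
    rw [hNQ]
    intro x hx
    exact hQb2 ⟨x, hx, rfl⟩
  refine ⟨Qb.comap π, ?_, ?_, hPQ, ?_, ?_⟩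
  · intro z hz
    rw [mem_comap, (hπ1 z).2 hz]
    exact one_mem _
  · intro x hx
    exact hPmem x (hQb1 hx)
  · -- control
    have step : ∀ X : Subgroup G, X ≤ P → Z ≤ X →
        ¬ p ∣ ((P : Subgroup G) ⊓ normalizer (X : Set G)).relIndex (normalizer (X : Set G)) →
        ∀ g ∈ normalizer (X : Set G), Dec (normalizer ((Qb.comap π : Subgroup G) : Set G)) X g := by
      intro X hXP hZX hfull g hg
      have hXb : (X.map π).map (MulAut.conj (π g)).toMonoidHom ≤ (P : Subgroup G).map π := by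
        rintro _ ⟨_, ⟨x, hx, rfl⟩, rfl⟩
        refine ⟨g * x * g⁻¹, hXP ((mem_normalizer_iff.1 hg x).1 hx), ?_⟩
        simp
      obtain ⟨hb, hhb, cb, hcb, hgb⟩ := hQb3 (X.map π) (Subgroup.map_mono hXP) (π g) hXb
      obtain ⟨h, rfl⟩ := hπs hb
      set D : Subgroup G := (centralizer ((X.map π : Subgroup (G ⧸ Z)) : Set (G ⧸ Z))).comap π with hD
      have hdD : h⁻¹ * g ∈ D := by
        rw [hD, mem_comap, map_mul, map_inv, hgb]
        simpa using hcb
      have hDstab : ∀ d ∈ D, ∀ x ∈ X, x⁻¹ * (d * x * d⁻¹) ∈ Z := by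
        intro d hd x hx
        rw [← hπ1]
        have h1 := (mem_centralizer_iff.1 (show π d ∈ centralizer _ from hd)) (π x) ⟨x, hx, rfl⟩
        rw [map_mul, map_mul, map_mul, map_inv, map_inv, ← h1]
        group
      have hDN : D ≤ normalizer (X : Set G) := by
        intro d hd
        rw [mem_normalizer_iff_map_conj]
        apply map_conj_le_of_le_normalizer
        rintro _ ⟨x, hx, rfl⟩
        have h1 := mul_mem hx (hZX (hDstab d hd x hx))
        have e : x * (x⁻¹ * (d * x * d⁻¹)) = (MulAut.conj d).toMonoidHom x := by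
          simp [mul_assoc]
        rwa [e] at h1
      have hND : normalizer (X : Set G) ≤ normalizer (D : Set G) := by
        rw [le_normalizer_iff]
        intro n hn d hd
        rw [hD, mem_comap, mem_centralizer_iff]
        rintro _ ⟨x, hx, rfl⟩
        have hx' : n⁻¹ * x * n ∈ X := by
          have := (mem_normalizer_iff.1 (inv_mem hn) x).1 hx
          simpa using this
        have h1 := (mem_centralizer_iff.1 (show π d ∈ centralizer _ from hd)) (π (n⁻¹ * x * n)) ⟨_, hx', rfl⟩
        have h2 := congrArg (fun t => π n * t * (π n)⁻¹) h1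
        simpa [mul_assoc] using h2
      have hCD : centralizer (X : Set G) ≤ D := by
        intro c hc
        rw [hD, mem_comap, mem_centralizer_iff]
        rintro _ ⟨x, hx, rfl⟩
        rw [← map_mul, ← map_mul, (mem_centralizer_iff.1 hc) x hx]
      have hidx := Walter.GlaubermanFusion.not_dvd_relIndex_inf (p := p) hDN hND hfull
      obtain ⟨s, hs, c, hc, hsc⟩ := Walter.GlaubermanFusion.exists_mul_of_pprime_mem (p := p) inf_le_right hidx hCD
        (hDN.trans (normalizer_le_normalizer_centralizer X)) (by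
          intro d hd ho
          refine mem_centralizer_of_stab (Y := Z) (P.isPGroup'.to_le hXP) ho ?_ ?_
          · rw [mem_centralizer_iff]
            intro z hz
            exact (mem_center_iff.1 (hZc hz) d).symm
          · intro x hx
            exact mem_inf.2 ⟨hDstab d hd x hx, hZX (hDstab d hd x hx)⟩) hdD
      refine ⟨h * s, mul_mem ?_ (hPQ hs.1.1), c, hc, ?_⟩
      · rw [hNQ]; exact hhb
      · rw [mul_assoc, ← hsc]; group
    intro A hA g hg
    refine dec_of_conj P ?_ ?_ hA hg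
    · refine step P le_rfl hZP ?_
      rw [inf_eq_left.2 le_normalizer]
      intro hd
      exact P.not_dvd_index (hd.trans (relIndex_dvd_index_of_le le_normalizer))
    · intro X hX
      refine step X hX.lt.le ?_ hX.full
      intro z hz
      refine hX.centric (mem_inf.2 ⟨?_, hZP hz⟩)
      rw [mem_centralizer_iff]
      intro x _
      exact mem_center_iff.1 (hZc hz) x
  · rintro y hy ⟨k, hk⟩
    refine hQb4 (π y) ?_ ⟨k, by rw [← map_pow, hk, map_one]⟩
    rw [mem_centralizer_iff]
    intro q hq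
    obtain ⟨q, rfl⟩ := hπs q
    rw [← map_mul, ← map_mul, (mem_centralizer_iff.1 hy) q hq]

/-- Groups with a normal abelian `p`-subgroup. -/
theorem concl_of_normal (Z : Subgroup G) [hZn : Z.Normal] (hZ : IsPGroup p Z)
    (hZab : Z ≤ centralizer (Z : Set G))
    (h : Concl p (↥(centralizer (Z : Set G)) ⧸ (Z.subgroupOf (centralizer (Z : Set G))))) (P : Sylow p G) :
    ∃ Q : Subgroup G, Z ≤ Q ∧ Q ≤ P ∧ (P : Subgroup G) ≤ normalizer (Q : Set G) ∧
      Ctl (P : Subgroup G) (normalizer (Q : Set G)) ∧ Cen p Q := by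
  set C : Subgroup G := centralizer (Z : Set G) with hC
  have hCn : C.Normal := by rw [hC]; infer_instance
  have hSi : ¬ p ∣ ((P : Subgroup G) ⊓ C).relIndex C := not_dvd_inf_relIndex C P
  have hSp : IsPGroup p (((P : Subgroup G) ⊓ C).subgroupOf C) :=
    (P.isPGroup'.to_le inf_le_left).comap_of_injective C.subtype C.subtype_injective
  let S : Sylow p C := hSp.toSylow hSi
  have hS : ∀ x : C, x ∈ (S : Subgroup C) ↔ (x : G) ∈ (P : Subgroup G) := by
    intro x
    change (x : G) ∈ (P : Subgroup G) ⊓ C ↔ _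
    exact ⟨fun h => h.1, fun h => ⟨h, x.2⟩⟩
  obtain ⟨Q', hZQ', hQ'S, hSQ', hctl', hcen'⟩ := concl_of_quotient (Z.subgroupOf C)
    (hZ.comap_of_injective C.subtype C.subtype_injective) (by
      intro z hz
      rw [mem_center_iff]
      intro x
      exact Subtype.ext ((mem_centralizer_iff.1 x.2) z hz).symm) h S
  set V : Subgroup G := Q'.map C.subtype with hV
  have hVP : V ≤ (P : Subgroup G) ⊓ C := by
    rintro _ ⟨x, hx, rfl⟩
    exact mem_inf.2 ⟨(hS x).1 (hQ'S hx), x.2⟩
  have hNV : ∀ x : C, x ∈ normalizer (Q' : Set C) → (x : G) ∈ normalizer (V : Set G) := by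
    intro x hx
    rw [mem_normalizer_iff_map_conj]
    apply map_conj_le_of_le_normalizer
    rintro _ ⟨_, ⟨v, hv, rfl⟩, rfl⟩
    exact ⟨x * v * x⁻¹, (mem_normalizer_iff.1 hx v).1 hv, by simp⟩
  have hctrl : ∀ A : Subgroup G, A ≤ (P : Subgroup G) ⊓ C → ∀ n ∈ C,
      A.map (MulAut.conj n).toMonoidHom ≤ (P : Subgroup G) ⊓ C →
      ∃ h ∈ C ⊓ normalizer (V : Set G), ∃ c ∈ C ⊓ centralizer (A : Set G), n = h * c := by
    intro A hA n hn hAn
    obtain ⟨h, hh, c, hc, hhc⟩ := hctl' (A.subgroupOf C) (by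
        intro x hx
        exact (hS x).2 (hA (show (x : G) ∈ A from hx)).1) ⟨n, hn⟩ (by
        rintro _ ⟨x, hx, rfl⟩
        rw [hS]
        have hx' : (x : G) ∈ A := hx
        exact (hAn (conj_mem_map_conj hx' n)).1)
    refine ⟨h, mem_inf.2 ⟨h.2, hNV h hh⟩, c, mem_inf.2 ⟨c.2, ?_⟩, congrArg Subtype.val hhc⟩
    rw [mem_centralizer_iff]
    intro a ha
    have h1 := (mem_centralizer_iff.1 hc) ⟨a, (hA ha).2⟩ (show a ∈ A from ha)
    exact congrArg Subtype.val h1
  obtain ⟨hW1, hW2, hW3⟩ := normal_lift C P V hVP hctrl _ rfl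
  set W : Subgroup G := closure (⋃ x ∈ normalizer (((P : Subgroup G) ⊓ C : Subgroup G) : Set G),
      ((V.map (MulAut.conj x).toMonoidHom : Subgroup G) : Set G)) with hW
  have hVW : V ≤ W := by
    intro v hv
    apply Subgroup.subset_closure
    simp only [Set.mem_iUnion]
    refine ⟨1, one_mem _, ?_⟩
    rw [map_conj_one]
    exact hv
  have hZV : Z ≤ V := by
    intro z hz
    exact ⟨⟨z, hZab hz⟩, hZQ' hz, rfl⟩
  have hPPC : (P : Subgroup G) ≤ normalizer (((P : Subgroup G) ⊓ C : Subgroup G) : Set G) := by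
    rw [le_normalizer_iff]
    intro x hx y hy
    exact mem_inf.2 ⟨mul_mem (mul_mem hx hy.1) (inv_mem hx), hCn.conj_mem _ hy.2 _⟩
  refine ⟨W, hZV.trans hVW, hW1.trans inf_le_left, hPPC.trans hW2, hW3, ?_⟩
  rintro y hy ⟨k, hk⟩
  have hyV : y ∈ centralizer (V : Set G) := centralizer_le (by exact_mod_cast hVW) hy
  have hyC : y ∈ C := centralizer_le (by exact_mod_cast hZV) hyV
  apply hVW
  refine ⟨⟨y, hyC⟩, hcen' ⟨y, hyC⟩ ?_ ⟨k, Subtype.ext (by simpa using hk)⟩, rfl⟩
  rw [mem_centralizer_iff]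
  intro q hq
  exact Subtype.ext ((mem_centralizer_iff.1 hyV) q ⟨q, hq, rfl⟩)

/-- **Main induction.** -/
theorem concl_of_free {p : ℕ} [hp : Fact p.Prime] (hp2 : p ≠ 2) (n : ℕ) :
    ∀ (G : Type u) [Group G] [Finite G], Nat.card G ≤ n → Free p G → Concl p G := by
  induction n with
  | zero =>
    intro G _ _ hn _
    exact absurd hn (by have : 0 < Nat.card G := Nat.card_pos; omega)
  | succ n ih =>
    intro G _ _ hn hfree P
    by_cases hP : (P : Subgroup G) = ⊥
    · refine ⟨⊥, bot_le, ?_, ?_, ?_⟩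
      · rw [hP]; exact le_normalizer
      · intro A _ g _
        refine ⟨g, ?_, 1, one_mem _, by simp⟩
        rw [mem_normalizer_iff_map_conj, Subgroup.map_bot]
      · rintro y - ⟨k, hk⟩
        have hpg : IsPGroup p (zpowers y) := by
          rintro ⟨x, hx⟩
          obtain ⟨i, rfl⟩ := mem_zpowers_iff.1 hx
          refine ⟨k, Subtype.ext ?_⟩
          change (y ^ i) ^ p ^ k = 1
          rw [← zpow_natCast, ← zpow_mul, mul_comm, zpow_mul, zpow_natCast, hk, one_zpow]
        obtain ⟨R, hR⟩ := hpg.exists_le_sylow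
        obtain ⟨g, hg⟩ := MulAction.exists_smul_eq G P R
        have h1 : (R : Subgroup G) = ⊥ := by
          rw [← hg, Sylow.coe_subgroup_smul, hP]
          ext x; simp
        rw [h1] at hR
        exact hR (mem_zpowers y)
    set Z : Subgroup G := centerThompsonAOf (P : Subgroup G) with hZdef
    have hZP : Z ≤ P := PLocal.ThompsonJA.centerThompsonAOf_le _
    have hZ1 : Z ≠ ⊥ := PLocal.ThompsonJA.centerThompsonAOf_ne_bot _ P.isPGroup' hP
    have hZp : IsPGroup p Z := P.isPGroup'.to_le hZP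
    have hZab : Z ≤ centralizer (Z : Set G) := by
      intro z hz
      rw [mem_centralizer_iff]
      intro y hy
      exact (PLocal.ThompsonJA.isMulCommutative_iff _).1
        (PLocal.ThompsonJA.isMulCommutative_centerThompsonAOf (P : Subgroup G)) y hy z hz
    set N : Subgroup G := normalizer (Z : Set G) with hN
    have hPN : (P : Subgroup G) ≤ N :=
      le_normalizer.trans (PLocal.ThompsonJA.normalizer_le_normalizer_centerThompsonAOf _)
    have hZN : Z ≤ N := le_normalizer
    have hCN : centralizer (Z : Set G) ≤ N := centralizer_le_normalizer _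
    let P₁ : Sylow p N := P.subtype hPN
    have hP₁ : ∀ x : N, x ∈ (P₁ : Subgroup N) ↔ (x : G) ∈ (P : Subgroup G) := fun x => Iff.rfl
    set Z₁ : Subgroup N := Z.subgroupOf N with hZ₁
    have hZ₁n : Z₁.Normal := by rw [hZ₁, hN]; infer_instance
    have hZ₁p : IsPGroup p Z₁ := hZp.comap_of_injective N.subtype N.subtype_injective
    have hZ₁ab : Z₁ ≤ centralizer (Z₁ : Set N) := by
      intro z hz
      rw [mem_centralizer_iff]
      intro y hy
      exact Subtype.ext ((mem_centralizer_iff.1 (hZab (show (z : G) ∈ Z from hz))) y hy)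
    have hfreeC : Free p ↥(centralizer (Z₁ : Set N)) := (hfree.of_subgroup N).of_subgroup _
    have hZC : IsPGroup p (Z₁.subgroupOf (centralizer (Z₁ : Set N))) :=
      hZ₁p.comap_of_injective _ (Subgroup.subtype_injective _)
    have hfreeQ : Free p (↥(centralizer (Z₁ : Set N)) ⧸ Z₁.subgroupOf (centralizer (Z₁ : Set N))) := by
      refine hfreeC.of_surjective (QuotientGroup.mk' _) (QuotientGroup.mk'_surjective _) ?_
      rw [QuotientGroup.ker_mk']
      exact hZC
    have hcard : Nat.card (↥(centralizer (Z₁ : Set N)) ⧸ Z₁.subgroupOf (centralizer (Z₁ : Set N))) ≤ n := by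
      have h1 := Subgroup.card_eq_card_quotient_mul_card_subgroup (Z₁.subgroupOf (centralizer (Z₁ : Set N)))
      have h2 : Nat.card ↥(centralizer (Z₁ : Set N)) ≤ Nat.card N := Subgroup.card_le_card_group _
      have h3 : Nat.card N ≤ Nat.card G := Subgroup.card_le_card_group _
      have h4 : 1 < Nat.card (Z₁.subgroupOf (centralizer (Z₁ : Set N))) := by
        rw [Subgroup.one_lt_card_iff_ne_bot]
        intro hbot
        apply hZ1
        rw [eq_bot_iff]
        intro z hz
        have h5 : (⟨⟨z, hZN hz⟩, hZ₁ab (show (⟨z, hZN hz⟩ : N) ∈ Z₁ from hz)⟩ : ↥(centralizer (Z₁ : Set N))) ∈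
            Z₁.subgroupOf (centralizer (Z₁ : Set N)) := hz
        rw [hbot, mem_bot] at h5
        rw [mem_bot]
        exact congrArg (fun t : ↥(centralizer (Z₁ : Set N)) => ((t : N) : G)) h5
      have h5 : 0 < Nat.card (↥(centralizer (Z₁ : Set N)) ⧸ Z₁.subgroupOf (centralizer (Z₁ : Set N))) :=
        Nat.card_pos
      nlinarith
    obtain ⟨W₁, hZW₁, hW₁P, hPW₁, hctl₁, hcen₁⟩ := concl_of_normal Z₁ hZ₁p hZ₁ab (ih _ hcard hfreeQ) P₁
    set W : Subgroup G := W₁.map N.subtype with hW
    have hNW : ∀ x : N, x ∈ normalizer (W₁ : Set N) → (x : G) ∈ normalizer (W : Set G) := by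
      intro x hx
      rw [mem_normalizer_iff_map_conj]
      apply map_conj_le_of_le_normalizer
      rintro _ ⟨_, ⟨v, hv, rfl⟩, rfl⟩
      exact ⟨x * v * x⁻¹, (mem_normalizer_iff.1 hx v).1 hv, by simp⟩
    have hZW : Z ≤ W := by
      intro z hz
      exact ⟨⟨z, hZN hz⟩, hZW₁ hz, rfl⟩
    refine ⟨W, ?_, ?_, ?_, ?_⟩
    · rintro _ ⟨x, hx, rfl⟩
      exact (hP₁ x).1 (hW₁P hx)
    · intro x hx
      exact hNW ⟨x, hPN hx⟩ (hPW₁ ((hP₁ _).2 hx))
    · intro A hA g hg
      obtain ⟨m, hm, c, hc, rfl⟩ := Walter.GlaubermanFusion.ctrl hp2 (Nat.card G) G le_rfl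
        hfree.not_involves P A g hA hg
      rw [← map_conj_map_conj, map_conj_of_mem_centralizer hc] at hg
      obtain ⟨h, hh, d, hd, hhd⟩ := hctl₁ (A.subgroupOf N) (by
        intro x hx
        exact (hP₁ x).2 (hA (show (x : G) ∈ A from hx))) ⟨m, hm⟩ (by
        rintro _ ⟨x, hx, rfl⟩
        rw [hP₁]
        have hx' : (x : G) ∈ A := hx
        exact hg (conj_mem_map_conj hx' m))
      have hdA : (d : G) ∈ centralizer (A : Set G) := by
        rw [mem_centralizer_iff]
        intro a ha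
        have h1 := (mem_centralizer_iff.1 hd) ⟨a, hPN (hA ha)⟩ (show a ∈ A from ha)
        exact congrArg Subtype.val h1
      refine ⟨h, hNW h hh, d * c, mul_mem hdA hc, ?_⟩
      have h1 : m = h * d := congrArg Subtype.val hhd
      rw [h1, mul_assoc]
    · rintro y hy ⟨k, hk⟩
      have hyN : y ∈ N := hCN (centralizer_le (by exact_mod_cast hZW) hy)
      refine ⟨⟨y, hyN⟩, hcen₁ ⟨y, hyN⟩ ?_ ⟨k, Subtype.ext (by simpa using hk)⟩, rfl⟩
      rw [mem_centralizer_iff]
      intro q hq
      exact Subtype.ext ((mem_centralizer_iff.1 hy) q ⟨q, hq, rfl⟩)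

end Cfsg.Agent.H30.CentricControl
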