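import Cfsg.Agent.H30.StrongFusion

/-!
# Normal centric subgroups of a fusion system and the least centric radical subgroup

`P` a Sylow `p`-subgroup of the finite group `G`, `Q ⊴ P` such that `N_G(Q)` controls strong fusion in `P`.

* `le_of_rad`: `Q` is contained in every centric radical subgroup `E` of `P`;
* `enlarge`: if `Q` is centric and `X / Q C(Q)` is a normal `p`-subgroup of `N(Q) / Q C(Q)` then `N(P ∩ X)` controls
  strong fusion too;
* `exists_max`: a centric `Q` as above is contained in a centric radical one.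
-/

set_option autoImplicit false

namespace Cfsg.Agent.H30.LeastCR

open Subgroup Cfsg.Agent.Lib.GoldschmidtFusion Cfsg.Agent.Lib.EssentialFusion
open Cfsg.Agent.H30.StrongFusion

variable {G : Type*} [Group G]

/-- `M` controls strong fusion in `P`. -/
def Ctl (P M : Subgroup G) : Prop :=
  ∀ A : Subgroup G, A ≤ P → ∀ g : G, A.map (MulAut.conj g).toMonoidHom ≤ P → Dec M A g

/-- All `p`-elements of `C_G(Q)` lie in `Q`. -/
def Cen (p : ℕ) (Q : Subgroup G) : Prop :=
  ∀ y ∈ centralizer (Q : Set G), (∃ k : ℕ, y ^ p ^ k = 1) → y ∈ Q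

/-- `N_G(E) / E C_G(E)` has no nontrivial normal `p`-subgroup. -/
def Rad (p : ℕ) (E : Subgroup G) : Prop :=
  ∀ A : Subgroup G, A ≤ normalizer (E : Set G) → normalizer (E : Set G) ≤ normalizer (A : Set G) →
    (∀ g ∈ A, ∃ k : ℕ, g ^ p ^ k ∈ centralizer (E : Set G)) → A ≤ XC E

theorem mem_XC {X : Subgroup G} {y : G} (hy : y ∈ XC X) : ∃ x ∈ X, ∃ c ∈ centralizer (X : Set G), y = x * c := by
  have hy' : y ∈ ((XC X : Subgroup G) : Set G) := hy
  rw [XC, coe_mul_of_right_le_normalizer_left _ _ (centralizer_le_normalizer _)] at hy'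
  obtain ⟨x, hx, c, hc, rfl⟩ := Set.mem_mul.1 hy'
  exact ⟨x, hx, c, hc, rfl⟩

/-- Powers of an element stabilizing a chain. -/
theorem conj_pow_stab {g x z : G} (h : g * x * g⁻¹ = x * z) (hz : g * z * g⁻¹ = z) (m : ℕ) :
    g ^ m * x * (g ^ m)⁻¹ = x * z ^ m := by
  induction m with
  | zero => simp
  | succ m ih =>
    have e1 : g ^ (m + 1) * x * (g ^ (m + 1))⁻¹ = g * (g ^ m * x * (g ^ m)⁻¹) * g⁻¹ := by
      rw [pow_succ']; group
    have e2 : g * z ^ m * g⁻¹ = z ^ m := by rw [← conj_pow, hz]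
    calc g ^ (m + 1) * x * (g ^ (m + 1))⁻¹ = g * (x * z ^ m) * g⁻¹ := by rw [e1, ih]
      _ = (g * x * g⁻¹) * (g * z ^ m * g⁻¹) := by group
      _ = x * z ^ (m + 1) := by rw [e2, h, pow_succ', mul_assoc]

theorem mem_centralizer_of_conj {E : Subgroup G} {g : G} (h : ∀ x ∈ E, g * x * g⁻¹ = x) :
    g ∈ centralizer (E : Set G) := by
  rw [mem_centralizer_iff]
  intro x hx
  calc x * g = (g * x * g⁻¹) * g := by rw [h x hx]
    _ = g * x := by group

theorem conj_eq_of_mem {E : Subgroup G} {g x : G} (h : g ∈ centralizer (E : Set G)) (hx : x ∈ E) :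
    g * x * g⁻¹ = x := conj_eq_of_mem_centralizer h hx

section Finite

variable [Finite G] {p : ℕ} [hp : Fact p.Prime]

/-- A power of an element stabilizing a chain centralizes. -/
theorem exists_pow_mem_centralizer {E Y : Subgroup G} (hY : IsPGroup p Y) {g : G}
    (hg : g ∈ centralizer (Y : Set G)) (h : ∀ x ∈ E, x⁻¹ * (g * x * g⁻¹) ∈ Y) :
    ∃ k : ℕ, g ^ p ^ k ∈ centralizer (E : Set G) := by
  obtain ⟨n, hn⟩ := IsPGroup.iff_card.1 hY
  refine ⟨n, mem_centralizer_of_conj ?_⟩
  intro x hx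
  have hz := h x hx
  set z := x⁻¹ * (g * x * g⁻¹) with hzdef
  have h1 : g * x * g⁻¹ = x * z := by rw [hzdef]; group
  rw [conj_pow_stab h1 (conj_eq_of_mem hg hz)]
  have h2 : (⟨z, hz⟩ : Y) ^ Nat.card Y = 1 := pow_card_eq_one'
  have h3 : z ^ p ^ n = 1 := by
    rw [← hn]
    have h3 := congrArg Subtype.val h2
    rwa [Subgroup.coe_pow] at h3
  rw [h3, mul_one]

omit [Finite G] hp in
/-- `Rad` from essential subgroups. -/
theorem rad_of_coprime {E : Subgroup G}
    (h : ∀ A : Subgroup G, A ≤ normalizer (E : Set G) → normalizer (E : Set G) ≤ normalizer (A : Set G) →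
      (∀ g ∈ A, Nat.Coprime (orderOf g) p → g ∈ centralizer (E : Set G)) → A ≤ XC E) : Rad p E := by
  intro A hA hN hk
  refine h A hA hN ?_
  intro g hg ho
  obtain ⟨k, hk⟩ := hk g hg
  have hco : Nat.Coprime (p ^ k) (orderOf g) := (Nat.Coprime.pow_left k ho.symm)
  have h1 : g ∈ zpowers (g ^ p ^ k) := by
    rw [mem_zpowers_pow_iff]
    exact hco
  exact (zpowers_le.2 hk) h1

theorem Ess.rad {P : Sylow p G} {X : Subgroup G} (h : Ess P X) : Rad p X :=
  rad_of_coprime fun _ hA hN hc => ess_le_XC h hA hN hc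

omit [Finite G] hp in
/-- The normalizer of `E` when `N_G(Q)` controls strong fusion. -/
theorem normalizer_dec {P Q E : Subgroup G} (hctl : Ctl P (normalizer (Q : Set G))) (hE : E ≤ P) {g : G}
    (hg : g ∈ normalizer (E : Set G)) :
    ∃ h ∈ normalizer (Q : Set G), h ∈ normalizer (E : Set G) ∧ ∃ c ∈ centralizer (E : Set G), g = h * c := by
  obtain ⟨h, hh, c, hc, rfl⟩ := hctl E hE g (by rw [mem_normalizer_iff_map_conj.1 hg]; exact hE)
  refine ⟨h, hh, ?_, c, hc, rfl⟩
  have := mul_mem hg (inv_mem (centralizer_le_normalizer _ hc))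
  simpa using this

/-- A subgroup `R ⊴ P` with `N_R(E) ≤ E` lies in `E`. -/
theorem le_of_inf_normalizer_le {P : Sylow p G} {R E : Subgroup G} (hRP : R ≤ P) (hE : E ≤ P)
    (hPR : (P : Subgroup G) ≤ normalizer (R : Set G)) (h : R ⊓ normalizer (E : Set G) ≤ E) : R ≤ E := by
  by_contra hcon
  have hlt : E < R ⊔ E := right_lt_sup.2 hcon
  have hpg : IsPGroup p (R ⊔ E : Subgroup G) := P.isPGroup'.to_le (sup_le hRP hE)
  have h1 := lt_inf_normalizer hpg hlt
  obtain ⟨t, ht, htE⟩ := SetLike.exists_of_lt h1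
  have ht' : t ∈ ((R ⊔ E : Subgroup G) : Set G) := ht.1
  rw [coe_mul_of_right_le_normalizer_left _ _ (hE.trans hPR)] at ht'
  obtain ⟨r, hr, e, he, rfl⟩ := Set.mem_mul.1 ht'
  apply htE
  refine mul_mem (h ⟨hr, ?_⟩) he
  have h2 : e ∈ normalizer (E : Set G) := le_normalizer he
  have := mul_mem (show r * e ∈ normalizer (E : Set G) from ht.2) (inv_mem h2)
  simpa using this

/-- **A subgroup normal in the fusion system lies in every centric radical subgroup.** -/
theorem le_of_rad {P : Sylow p G} {Q E : Subgroup G} (hQP : Q ≤ P)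
    (hPQ : (P : Subgroup G) ≤ normalizer (Q : Set G)) (hctl : Ctl (P : Subgroup G) (normalizer (Q : Set G)))
    (hE : E ≤ P) (hcE : centralizer (E : Set G) ⊓ P ≤ E) (hrad : Rad p E) : Q ≤ E := by
  refine le_of_inf_normalizer_le hQP hE hPQ ?_
  set A : Subgroup G := (Q ⊓ normalizer (E : Set G)) ⊔ centralizer (E : Set G) with hA
  have hAN : A ≤ normalizer (E : Set G) := sup_le inf_le_right (centralizer_le_normalizer _)
  have hCn : normalizer (E : Set G) ≤ normalizer (centralizer (E : Set G) : Set G) := by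
    rw [le_normalizer_iff]
    intro n hn y hy
    rw [← mem_normalizer_iff_map_conj.1 hn, mem_centralizer_map_conj]
    simpa [mul_assoc] using hy
  have hNA : normalizer (E : Set G) ≤ normalizer (A : Set G) := by
    intro g hg
    obtain ⟨h, hhQ, hhE, c, hc, rfl⟩ := normalizer_dec hctl hE hg
    have h1 : c ∈ A := (le_sup_right : centralizer (E : Set G) ≤ A) hc
    refine mul_mem ?_ (le_normalizer h1)
    rw [mem_normalizer_iff_map_conj, hA, Subgroup.map_sup, mem_normalizer_iff_map_conj.1 (hCn hhE)]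
    congr 1
    rw [Subgroup.map_inf _ _ _ (MulAut.conj h).injective, mem_normalizer_iff_map_conj.1 hhQ,
      mem_normalizer_iff_map_conj.1 (le_normalizer hhE)]
  have hpow : ∀ g ∈ A, ∃ k : ℕ, g ^ p ^ k ∈ centralizer (E : Set G) := by
    intro g hg
    have hg' : g ∈ ((A : Subgroup G) : Set G) := hg
    rw [hA, coe_mul_of_left_le_normalizer_right _ _ (inf_le_right.trans hCn)] at hg'
    obtain ⟨q, hq, c, hc, rfl⟩ := Set.mem_mul.1 hg'
    obtain ⟨k, hk⟩ := P.isPGroup' ⟨q, hQP hq.1⟩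
    have hk' : q ^ p ^ k = 1 := by simpa using congrArg Subtype.val hk
    refine ⟨k, ?_⟩
    -- `(q c)^m ∈ q^m C`
    have key : ∀ m : ℕ, ∃ c' ∈ centralizer (E : Set G), (q * c) ^ m = q ^ m * c' := by
      intro m
      induction m with
      | zero => exact ⟨1, one_mem _, by simp⟩
      | succ m ih =>
        obtain ⟨c', hc', h1⟩ := ih
        refine ⟨q⁻¹ * c' * q * c, mul_mem ?_ hc, ?_⟩
        · have := (mem_normalizer_iff.1 (hCn (inv_mem hq.2)) c').1 hc'
          simpa using this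
        · rw [pow_succ, h1, pow_succ]; group
    obtain ⟨c', hc', h1⟩ := key (p ^ k)
    rw [h1, hk', one_mul]
    exact hc'
  have hAX := hrad A hAN hNA hpow
  intro q hq
  obtain ⟨e, he, c, hc, hqe⟩ := mem_XC (hAX ((le_sup_left : Q ⊓ normalizer (E : Set G) ≤ A) hq))
  have hcP : c ∈ (P : Subgroup G) := by
    have : c = e⁻¹ * q := by rw [hqe]; group
    rw [this]
    exact mul_mem (inv_mem (hE he)) (hQP hq.1)
  rw [hqe]
  exact mul_mem he (hcE ⟨hc, hcP⟩)

omit [Finite G] hp in
/-- Elements of `X`, `X / Q C(Q)` a `p`-group, `Q` a `p`-group, have a power in `C(Q)`. -/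
theorem exists_pow_mem_cent {Q X : Subgroup G} (hQ : IsPGroup p Q) (hXN : X ≤ normalizer (Q : Set G))
    (hX : XC Q ≤ X) {k : ℕ} (hk : (XC Q).relIndex X = p ^ k) {x : G} (hx : x ∈ X) :
    ∃ j : ℕ, x ^ p ^ j ∈ centralizer (Q : Set G) := by
  have hn : ((XC Q).subgroupOf X).Normal := by
    rw [normal_subgroupOf_iff_le_normalizer hX]
    intro g hg
    rw [mem_normalizer_iff_map_conj]
    exact map_conj_XC (hXN hg)
  have hpg : IsPGroup p (X ⧸ (XC Q).subgroupOf X) := IsPGroup.of_card hk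
  obtain ⟨i, hi⟩ := hpg (QuotientGroup.mk (⟨x, hx⟩ : X))
  rw [← QuotientGroup.mk_pow, QuotientGroup.eq_one_iff, mem_subgroupOf] at hi
  have hi' : x ^ p ^ i ∈ XC Q := by simpa using hi
  obtain ⟨q, hq, c, hc, hqc⟩ := mem_XC hi'
  obtain ⟨j, hj⟩ := hQ ⟨q, hq⟩
  have hj' : q ^ p ^ j = 1 := by simpa using congrArg Subtype.val hj
  have hcomm : Commute q c := (mem_centralizer_iff.1 hc) q hq
  refine ⟨i + j, ?_⟩
  rw [pow_add, pow_mul, hqc, hcomm.mul_pow, hj', one_mul]
  exact pow_mem hc _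

/-- **Enlarging a centric normal subgroup of the fusion system.** -/
theorem enlarge (P : Sylow p G) {Q X : Subgroup G} (hQP : Q ≤ P)
    (hPQ : (P : Subgroup G) ≤ normalizer (Q : Set G)) (hctl : Ctl (P : Subgroup G) (normalizer (Q : Set G)))
    (hcen : Cen p Q) (hXN : X ≤ normalizer (Q : Set G))
    (hNX : normalizer (Q : Set G) ≤ normalizer (X : Set G))
    (hX : XC Q ≤ X) {k : ℕ} (hk : (XC Q).relIndex X = p ^ k) :
    Ctl (P : Subgroup G) (normalizer (((P : Subgroup G) ⊓ X : Subgroup G) : Set G)) := by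
  have hQp : IsPGroup p Q := P.isPGroup'.to_le hQP
  set R : Subgroup G := (P : Subgroup G) ⊓ X with hR
  have hPR : (P : Subgroup G) ≤ normalizer (R : Set G) := by
    intro x hx
    rw [mem_normalizer_iff_map_conj, hR, Subgroup.map_inf _ _ _ (MulAut.conj x).injective,
      map_conj_of_mem hx, mem_normalizer_iff_map_conj.1 (hNX (hPQ hx))]
  intro A hA g hg
  refine dec_of_conj P ?_ ?_ hA hg
  · intro g hg
    obtain ⟨h, hhQ, hhP, c, hc, rfl⟩ := normalizer_dec hctl le_rfl hg
    refine ⟨h, ?_, c, hc, rfl⟩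
    rw [mem_normalizer_iff_map_conj, hR, Subgroup.map_inf _ _ _ (MulAut.conj h).injective,
      mem_normalizer_iff_map_conj.1 hhP, mem_normalizer_iff_map_conj.1 (hNX hhQ)]
  · intro E hE g hg
    have hQE : Q ≤ E := le_of_rad hQP hPQ hctl hE.lt.le hE.centric (Ess.rad hE)
    have hCE : centralizer (E : Set G) ≤ centralizer (Q : Set G) := centralizer_le (by exact_mod_cast hQE)
    have hEN : E ≤ normalizer (Q : Set G) := hE.lt.le.trans hPQ
    -- `A = X ∩ N(E)`
    have hAX : X ⊓ normalizer (E : Set G) ≤ XC E := by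
      refine Ess.rad hE _ inf_le_right ?_ ?_
      · intro n hn
        obtain ⟨h, hhQ, hhE, c, hc, rfl⟩ := normalizer_dec hctl hE.lt.le hn
        have hcA : c ∈ X ⊓ normalizer (E : Set G) :=
          mem_inf.2 ⟨hX (centralizer_le_XC Q (hCE hc)), centralizer_le_normalizer _ hc⟩
        refine mul_mem ?_ (le_normalizer hcA)
        rw [mem_normalizer_iff_map_conj, Subgroup.map_inf _ _ _ (MulAut.conj h).injective,
          mem_normalizer_iff_map_conj.1 (hNX hhQ), mem_normalizer_iff_map_conj.1 (le_normalizer hhE)]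
      · rintro x ⟨hxX, hxE⟩
        obtain ⟨j, hj⟩ := exists_pow_mem_cent hQp hXN hX hk hxX
        have hxE' : x ^ p ^ j ∈ normalizer (E : Set G) := pow_mem hxE _
        obtain ⟨i, hi⟩ := exists_pow_mem_centralizer (p := p) (E := E) (Y := Q) hQp hj (by
          intro e he
          have h1 : e⁻¹ * (x ^ p ^ j * e * (x ^ p ^ j)⁻¹) ∈ E :=
            mul_mem (inv_mem he) ((mem_normalizer_iff.1 hxE' e).1 he)
          apply hcen
          · have hCn : e⁻¹ * x ^ p ^ j * e⁻¹⁻¹ ∈ centralizer (Q : Set G) := by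
              rw [← mem_normalizer_iff_map_conj.1 (inv_mem (hEN he)), mem_centralizer_map_conj]
              simpa [mul_assoc] using hj
            have h2 : e⁻¹ * (x ^ p ^ j * e * (x ^ p ^ j)⁻¹) = (e⁻¹ * x ^ p ^ j * e⁻¹⁻¹) * (x ^ p ^ j)⁻¹ := by
              group
            rw [h2]
            exact mul_mem hCn (inv_mem hj)
          · obtain ⟨i, hi⟩ := P.isPGroup' ⟨_, hE.lt.le h1⟩
            exact ⟨i, by simpa using congrArg Subtype.val hi⟩)
        exact ⟨j + i, by rw [pow_add, pow_mul]; exact hi⟩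
    have hRE : R ≤ E := by
      refine le_of_inf_normalizer_le inf_le_left hE.lt.le hPR ?_
      rintro r ⟨hr, hrE⟩
      obtain ⟨e, he, c, hc, hec⟩ := mem_XC (hAX (mem_inf.2 ⟨hr.2, hrE⟩))
      have hcP : c ∈ (P : Subgroup G) := by
        have : c = e⁻¹ * r := by rw [hec]; group
        rw [this]
        exact mul_mem (inv_mem (hE.lt.le he)) hr.1
      rw [hec]
      exact mul_mem he (hE.centric ⟨hc, hcP⟩)
    have hRXE : R = X ⊓ E := by
      apply le_antisymm
      · exact le_inf inf_le_right hRE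
      · exact le_inf (inf_le_right.trans hE.lt.le) inf_le_left
    obtain ⟨h, hhQ, hhE, c, hc, rfl⟩ := normalizer_dec hctl hE.lt.le hg
    refine ⟨h, ?_, c, hc, rfl⟩
    rw [mem_normalizer_iff_map_conj, hRXE, Subgroup.map_inf _ _ _ (MulAut.conj h).injective,
      mem_normalizer_iff_map_conj.1 (hNX hhQ), mem_normalizer_iff_map_conj.1 hhE]

omit [Finite G] hp in
theorem Cen.mono {Q R : Subgroup G} (h : Cen p Q) (hQR : Q ≤ R) : Cen p R := by
  intro y hy hk
  exact hQR (h y (centralizer_le (by exact_mod_cast hQR) hy) hk)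

/-- **The radical enlargement.** -/
theorem exists_max (P : Sylow p G) {Q₀ : Subgroup G} (hQP : Q₀ ≤ P)
    (hPQ : (P : Subgroup G) ≤ normalizer (Q₀ : Set G)) (hctl : Ctl (P : Subgroup G) (normalizer (Q₀ : Set G)))
    (hcen : Cen p Q₀) :
    ∃ Q : Subgroup G, Q ≤ P ∧ (P : Subgroup G) ≤ normalizer (Q : Set G) ∧
      Ctl (P : Subgroup G) (normalizer (Q : Set G)) ∧ Cen p Q ∧
      ∀ X : Subgroup G, X ≤ normalizer (Q : Set G) → normalizer (Q : Set G) ≤ normalizer (X : Set G) →
        XC Q ≤ X → (∃ k : ℕ, (XC Q).relIndex X = p ^ k) → X = XC Q := by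
  classical
  obtain ⟨Q, ⟨hQ₀, hQP', hPQ', hctl'⟩, hmax⟩ := Set.exists_max_image
    {Q : Subgroup G | Q₀ ≤ Q ∧ Q ≤ P ∧ (P : Subgroup G) ≤ normalizer (Q : Set G) ∧
      Ctl (P : Subgroup G) (normalizer (Q : Set G))} (fun Q => Nat.card Q) (Set.toFinite _)
    ⟨Q₀, le_rfl, hQP, hPQ, hctl⟩
  have hcen' : Cen p Q := hcen.mono hQ₀
  refine ⟨Q, hQP', hPQ', hctl', hcen', ?_⟩
  rintro X hXN hNX hX ⟨k, hk⟩
  set R : Subgroup G := (P : Subgroup G) ⊓ X with hR
  have hQX : Q ≤ X := (le_XC Q).trans hX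
  have hQR : Q ≤ R := le_inf hQP' hQX
  have hPR : (P : Subgroup G) ≤ normalizer (R : Set G) := by
    intro x hx
    rw [mem_normalizer_iff_map_conj, hR, Subgroup.map_inf _ _ _ (MulAut.conj x).injective,
      map_conj_of_mem hx, mem_normalizer_iff_map_conj.1 (hNX (hPQ' hx))]
  have hRmem := hmax R ⟨hQ₀.trans hQR, inf_le_left, hPR,
    enlarge P hQP' hPQ' hctl' hcen' hXN hNX hX hk⟩
  have hEq : Q = R := Subgroup.eq_of_le_of_card_ge hQR hRmem
  -- `R` is Sylow in `X`
  have hPN : ¬ p ∣ (P : Subgroup G).relIndex (normalizer (Q : Set G)) := by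
    intro h
    exact P.not_dvd_index (h.trans (relIndex_dvd_index_of_le hPQ'))
  have hn : (X.subgroupOf (normalizer (Q : Set G))).Normal := by
    rwa [normal_subgroupOf_iff_le_normalizer hXN]
  have hRX : ¬ p ∣ R.relIndex X := by
    rw [hR, inf_relIndex_right]
    intro hd
    apply hPN
    refine hd.trans ?_
    have e1 : (P : Subgroup G).relIndex X =
        ((P : Subgroup G).subgroupOf (normalizer (Q : Set G))).relIndex (X.subgroupOf (normalizer (Q : Set G))) := by
      rw [relIndex_subgroupOf hXN]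
    rw [e1]
    exact relIndex_dvd_index_of_normal_right _ _
  have h1 : (XC Q).relIndex X ∣ R.relIndex X := relIndex_dvd_of_le_left X (hEq ▸ le_XC Q)
  have hk0 : k = 0 := by
    by_contra hk0
    apply hRX
    refine dvd_trans ?_ h1
    rw [hk]
    exact dvd_pow_self p hk0
  rw [hk0, pow_zero, relIndex_eq_one] at hk
  exact le_antisymm hk hX

end Finite

end Cfsg.Agent.H30.LeastCR
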