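import Mathlib
import Cfsg.Prelude.Def_IsolatedElements
import Cfsg.Agent.H256.ZBasic

/-!
# Permutation form of the `Z*_p` statement

A `p`-element with a unique fixed point which is central in the point stabilizer is isolated.  If it
is central modulo the `p'`-core then the `p'`-core is transitive.
-/

set_option autoImplicit false
open Cfsg

namespace Cfsg.Agent.H30.ZStarPerm

open Cfsg.Agent.H256.ZBasic

variable {G : Type*} [Group G] {α : Type*} [MulAction G α] {g : G} {w : α}

theorem fix_iff (huniq : ∀ a : α, g • a = a → a = w)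
    (hcen : ∀ h : G, h • w = w → h * g = g * h) (hw : g • w = w) (h : G) :
    h • w = w ↔ h * g = g * h := by
  refine ⟨hcen h, fun hc => huniq _ ?_⟩
  rw [← mul_smul, ← hc, mul_smul, hw]

theorem isolated (huniq : ∀ a : α, g • a = a → a = w)
    (hcen : ∀ h : G, h • w = w → h * g = g * h) (hw : g • w = w) : IsIsolated g := by
  intro h hc
  have h1 : (h * g * h⁻¹) • (g • h • w) = g • h • w := by
    rw [← mul_smul, ← hc.eq, mul_smul]
    congr 1
    rw [← mul_smul, inv_mul_cancel_right, mul_smul, hw]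
  have h2 : g • (h⁻¹ • g • h • w) = h⁻¹ • g • h • w := by
    have h3 := congrArg (fun a => h⁻¹ • a) h1
    simp only [← mul_smul] at h3 ⊢
    have e1 : h⁻¹ * (h * g * h⁻¹ * (g * h)) = g * (h⁻¹ * (g * h)) := by group
    rwa [e1] at h3
  have h3 := huniq _ h2
  have h4 : g • h • w = h • w := by
    rw [inv_smul_eq_iff] at h3
    exact h3
  have h5 : h • w = w := huniq _ h4
  rw [hcen h h5, mul_inv_cancel_right]

theorem sup_eq_top [Finite G] {p : ℕ} [Fact p.Prime] (hiso : IsIsolated g)
    (hg : ∃ k : ℕ, orderOf g = p ^ k) (hz : InZStar p g) :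
    pPrimeCore p G ⊔ Subgroup.centralizer ({g} : Set G) = ⊤ := by
  rw [eq_top_iff]
  intro h _
  set N := pPrimeCore p G with hN
  have hgc : g ∈ Subgroup.centralizer ({g} : Set G) :=
    Subgroup.mem_centralizer_singleton_iff.2 rfl
  have hgH : g ∈ N ⊔ Subgroup.zpowers g := Subgroup.mem_sup_right (Subgroup.mem_zpowers g)
  have h1 : h * g * h⁻¹ ∈ N ⊔ Subgroup.zpowers g := by
    have h2 : h * g * h⁻¹ = (h * g * h⁻¹ * g⁻¹) * g := by group
    rw [h2]
    exact mul_mem (Subgroup.mem_sup_left (hz h)) hgH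
  obtain ⟨k, hk, he⟩ := exists_conj_mem hiso hg hgH h1
  have h2 : k⁻¹ * h ∈ Subgroup.centralizer ({g} : Set G) := by
    rw [Subgroup.mem_centralizer_singleton_iff]
    calc k⁻¹ * h * g = k⁻¹ * (h * g * h⁻¹) * h := by group
      _ = k⁻¹ * (k * g * k⁻¹) * h := by rw [he]
      _ = g * (k⁻¹ * h) := by group
  have h3 : k ∈ N ⊔ Subgroup.centralizer ({g} : Set G) := by
    refine (sup_le_sup_left ?_ N) hk
    rw [Subgroup.zpowers_le]
    exact hgc
  have h4 : h = k * (k⁻¹ * h) := by group
  rw [h4]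
  exact mul_mem h3 (Subgroup.mem_sup_right h2)

theorem concl [Finite G] [MulAction.IsPretransitive G α] {p : ℕ} [Fact p.Prime]
    (hg : ∃ k : ℕ, orderOf g = p ^ k) (huniq : ∀ a : α, g • a = a → a = w)
    (hcen : ∀ h : G, h • w = w → h * g = g * h) (hw : g • w = w) (hz : InZStar p g) :
    (∀ a b : α, ∃ n ∈ pPrimeCore p G, n • a = b) ∧
      MulAction.stabilizer G w = Subgroup.centralizer ({g} : Set G) ∧
      pPrimeCore p G ⊔ Subgroup.centralizer ({g} : Set G) = ⊤ := by
  have hst : MulAction.stabilizer G w = Subgroup.centralizer ({g} : Set G) := by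
    ext h
    rw [MulAction.mem_stabilizer_iff, Subgroup.mem_centralizer_singleton_iff]
    exact fix_iff huniq hcen hw h
  have htop := sup_eq_top (isolated huniq hcen hw) hg hz
  refine ⟨?_, hst, htop⟩
  have hNn : (pPrimeCore p G).Normal := Cfsg.Agent.Lib.Cores.pPrimeCore_normal p
  have key : ∀ a : α, ∃ n ∈ pPrimeCore p G, n • w = a := by
    intro a
    obtain ⟨h, rfl⟩ := MulAction.exists_smul_eq G w a
    have h1 : h ∈ pPrimeCore p G ⊔ Subgroup.centralizer ({g} : Set G) := by
      rw [htop]; trivial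
    rw [Subgroup.mem_sup_of_normal_left] at h1
    obtain ⟨n, hn, c, hc, rfl⟩ := h1
    refine ⟨n, hn, ?_⟩
    rw [← hst, MulAction.mem_stabilizer_iff] at hc
    rw [mul_smul, hc]
  intro a b
  obtain ⟨n, hn, rfl⟩ := key a
  obtain ⟨m, hm, rfl⟩ := key b
  refine ⟨m * n⁻¹, mul_mem hm (inv_mem hn), ?_⟩
  rw [mul_smul, inv_smul_smul]

end Cfsg.Agent.H30.ZStarPerm
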